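import Cfsg.Agent.Lib.BG.Max
import Cfsg.Agent.Lib.BG.T01_Cyclic
import Cfsg.Agent.Lib.Coprime.Constraint
import Cfsg.Agent.Lib.Core.PSolvable

/-!
# The Thompson transitivity theorem for groups with `p`-constrained `p`-local subgroups
-/

set_option autoImplicit false

namespace Cfsg.Lib.BG

open Subgroup
open scoped Cfsg.Lib.Transfer

variable {G : Type*} [Group G] [Finite G] {p q : ℕ} [hp : Fact p.Prime]

/-- The Thompson-Bender lemma for groups whose `p`-subgroups have class at most two. -/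
theorem thompson_bender_class_two (hG : IsPConstrained p G)
    (hcl : ∀ S : Subgroup G, IsPGroup p S → ⁅⁅S, S⁆, S⁆ = ⊥) {A L : Subgroup G} (hA : IsPGroup p A)
    (hΩ : ∀ x ∈ 𝐂(A), IsPGroup p (zpowers x) → x ∈ A) (hL : (Nat.card L).Coprime p)
    (hAL : A ≤ 𝐍(L)) : L ≤ pPrimeCore p G := by
  set f := QuotientGroup.mk' (pPrimeCore p G) with hf
  have hK := Core.pPrimeCore_coprime p G
  have hLf := Core.coprime_map f hL
  have hAL' : A.map f ≤ 𝐍(L.map f) := map_norm f hAL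
  have hAf := hA.map f
  refine Coprime.le_pPrimeCore_of_map_le_centralizer (Core.isPConstrained_iff.1 hG) hL ?_
  set P := pCore p (G ⧸ pPrimeCore p G) with hP
  have pP : IsPGroup p P := Core.pCore_isPGroup p _
  have nP : ∀ X : Subgroup (G ⧸ pPrimeCore p G), X ≤ 𝐍(P) := fun X => le_normalizer_of_normal
  have cop : (Nat.card (L.map f)).Coprime (Nat.card P) :=
    (PiGrp.p'_iff_coprime.2 hLf).coprime_pgroup pP
  -- `C_P(A) ≤ A`
  have h1 : P ⊓ 𝐂(A.map f) ≤ A.map f := by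
    intro y hy
    have h2 := hy.2
    rw [hf, Coprime.centralizer_map_mk' ((PiGrp.p'_iff_coprime.2 hK).coprime_pgroup hA).symm
      (Or.inl (pgroup_sol hA))] at h2
    obtain ⟨x, hx, rfl⟩ := h2
    obtain ⟨a, ha, b, hb, pa, pb, e, -⟩ := exists_pi_decomp {p} x
    have haA : a ∈ A := hΩ a (zpowers_le.2 hx ha) pa.zpowers.pgroup
    have hb1 : f b = 1 := by
      refine PiElt.eq_one (π := {p}) ?_ (pb.map f)
      have h3 : zpowers x ≤ P.comap f := zpowers_le.2 hy.1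
      exact (PiGrp.p_iff.2 pP).elt (h3 hb)
    rw [e, map_mul]
    exact mul_mem (mem_map_of_mem f haA) (hb1 ▸ one_mem _)
  have h2 : P ⊓ A.map f ≤ 𝐂(L.map f) := by
    rw [← comm_eq_bot_iff, eq_bot_iff, ← disjoint_of_coprime cop.symm]
    exact le_inf ((commutator_mono inf_le_left le_rfl).trans (comm_le_left (nP _)))
      (comm_le_right (inf_le_right.trans hAL'))
  -- the class of `P A` is at most two
  have h3 : ⁅⁅P ⊔ A.map f, P ⊔ A.map f⁆, P ⊔ A.map f⁆ = ⊥ := by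
    obtain ⟨S, hS⟩ := Syl.exists p ((P ⊔ A.map f).comap f)
    have h4 := hS.map f
    rw [map_comap_eq_self_of_surjective (QuotientGroup.mk'_surjective _)] at h4
    rw [← h4.eq_self (PiGrp.of_pgroup (pgroup_sup pP hAf (nP _)) rfl), ← map_commutator,
      ← map_commutator, hcl S hS.pgroup, Subgroup.map_bot]
  have h4 : ⁅P, A.map f⁆ ≤ 𝐂(P ⊔ A.map f) :=
    (commutator_mono le_sup_left le_sup_right).trans (comm_eq_bot_iff.1 h3)
  set V := P ⊓ 𝐂(P) ⊓ 𝐂(L.map f) with hV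
  have h5 : ⁅P, A.map f⁆ ≤ V := by
    have h6 : ⁅P, A.map f⁆ ≤ P := comm_le_left (nP _)
    refine le_inf (le_inf h6 (h4.trans (cent_anti le_sup_left))) (le_trans ?_ h2)
    exact le_inf h6 ((le_inf h6 (h4.trans (cent_anti le_sup_right))).trans h1)
  have h6 : ⁅⁅L.map f, A.map f⁆, P⁆ ≤ V := by
    refine Core.three_subgroups (norm_of_cent (cent_symm inf_le_right))
      (norm_inf (norm_center (nP _)) (norm_cent hAL'))
      (norm_of_cent (cent_symm (inf_le_left.trans inf_le_right))) ?_ ?_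
    · rw [commutator_comm (A.map f), comm_eq_bot_iff.2 (h5.trans inf_le_right)]
      exact bot_le
    · exact (commutator_mono (comm_le_left (nP _)) le_rfl).trans h5
  rw [← coprime_cent_prod hAL' ((PiGrp.p'_iff_coprime.2 hLf).coprime_pgroup hAf).symm
    (Or.inl (pgroup_sol hAf))]
  refine sup_le (stable_factor_cent (N := V) (by rwa [commutator_comm])
    ((comm_le_left hAL').trans (cent_symm inf_le_right))
    (coprime_mono cop (comm_le_left hAL') (inf_le_left.trans inf_le_left))) ?_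
  exact Coprime.p_times_q hAf (hLf.coprime_dvd_left (card_dvd inf_le_left)) pP
    (cent_symm inf_le_right) (nP _) (nP _)
    (((le_inf inf_le_left h1).trans h2).trans (cent_anti inf_le_left))

/-- If an abelian `p`-group `E` contains all `p`-elements of its centralizer then `O_{p'}(C(E))` is a
Hall `p'`-subgroup of `C(E)`. -/
theorem Hall_p'core_cent {E : Subgroup G} (hE : IsPGroup p E) (hab : IsMulCommutative E)
    (hΩ : ∀ x ∈ 𝐂(E), IsPGroup p (zpowers x) → x ∈ E) : Hall {p}ᶜ 𝐎({p}ᶜ, 𝐂(E)) 𝐂(E) := by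
  have hS : Syl p E 𝐂(E) := Syl.of_max (abelian_cent hab) hE fun Q hQ _ hQC x hx =>
    hΩ x (hQC hx) (pgroup_of_le hQ (zpowers_le.2 hx))
  exact (Hall.of_sd (Burnside_normal_complement hS inf_le_left) (pcore_pi _ _)
    (by rw [compl_compl]; exact hS.pi)).1

/-- The transitivity theorem, abstract form. -/
theorem transitivity_of_local [hq : Fact q.Prime] (hqp : q ≠ p) {E : Subgroup G} (hE : IsPGroup p E)
    (hab : IsMulCommutative E) (h3 : 3 ≤ rk p E)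
    (hΩ : ∀ x ∈ 𝐂(E), IsPGroup p (zpowers x) → x ∈ E)
    (hloc : ∀ x ∈ E, x ≠ 1 → ∃ L : Subgroup G, PiGrp {p}ᶜ L ∧ E ≤ 𝐍(L) ∧
      ∀ R : Subgroup G, R ≤ 𝐂[x] → IsPGroup q R → E ≤ 𝐍(R) → R ≤ L) :
    TransOn 𝐎({p}ᶜ, 𝐂(E)) (maxInvSubgroups ⊤ E {q}) := by
  intro Q₁ h₁ Q₂ h₂
  induction hm : Nat.card G - Nat.card ↥(Q₁ ⊓ Q₂) using Nat.strong_induction_on
    generalizing Q₁ Q₂ with
  | _ m ih =>
  by_cases e : Q₁ = Q₂
  · exact ⟨1, one_mem _, by rw [Transfer.conj_one, e]⟩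
  have p₁ := (maxInv_pi h₁).pgroup
  have p₂ := (maxInv_pi h₂).pgroup
  set D := Q₁ ⊓ Q₂ with hD
  have nD : E ≤ 𝐍(D) := norm_inf (maxInv_norm h₁) (maxInv_norm h₂)
  have l₁ : D < Q₁ ⊓ 𝐍(D) := nil_norm_grow (pgroup_nil p₁) (inf_le_left.lt_of_ne fun e' => e
    (maxInv_max h₁ le_top (maxInv_pi h₂) (maxInv_norm h₂) (inf_eq_left.1 e')).symm)
  have l₂ : D < Q₂ ⊓ 𝐍(D) := nil_norm_grow (pgroup_nil p₂) (inf_le_right.lt_of_ne fun e' => e
    (maxInv_max h₂ le_top (maxInv_pi h₁) (maxInv_norm h₁) (inf_eq_right.1 e')))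
  obtain ⟨B, hB⟩ := exists_elem_of_le_rk h3
  have nN : ∀ Q ∈ maxInvSubgroups ⊤ E {q}, E ≤ 𝐍(Q ⊓ 𝐍(D)) := fun Q hQ =>
    norm_inf (maxInv_norm hQ) (norm_norm nD)
  have cop : ∀ Q ∈ maxInvSubgroups ⊤ E {q}, (Nat.card B).Coprime (Nat.card ↥(Q ⊓ 𝐍(D))) :=
    fun Q hQ => coprime_pgroups hB.pgroup (pgroup_of_le (maxInv_pi hQ).pgroup inf_le_left)
      hqp.symm
  obtain ⟨C, hC, hi, hne₁⟩ : ∃ C : Subgroup G, C ≤ B ∧ C.relIndex B ∣ p ∧
      ¬ Q₁ ⊓ 𝐍(D) ⊓ 𝐂(C) ≤ D := by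
    by_contra hne
    push Not at hne
    exact l₁.not_ge (Coprime.le_of_forall_hyperplane hB.elem (hB.le.trans (nN _ h₁)) (cop _ h₁) hne)
  obtain ⟨n, hn, hle⟩ := hB.self.inf_rank (k := 1) hC le_rfl (by simpa using hi)
    (abelian_norm hB.abelian hC)
  rw [inf_eq_right.2 hC] at hn
  obtain ⟨x, hx, hx1, hne₂⟩ : ∃ x ∈ C, x ≠ 1 ∧ ¬ Q₂ ⊓ 𝐍(D) ⊓ 𝐂[x] ≤ D := by
    by_contra hne
    push Not at hne
    exact l₂.not_ge (coprime_abelian_gen_cent1 hn.abelian (hn.not_cyclic (by omega))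
      ((hC.trans hB.le).trans (nN _ h₂)) (coprime_mono (cop _ h₂) hC le_rfl) hne)
  replace hne₁ : ¬ Q₁ ⊓ 𝐍(D) ⊓ 𝐂[x] ≤ D := fun h =>
    hne₁ ((inf_le_inf_left _ (cent_le_cent1 hx)).trans h)
  have hxE : x ∈ E := hB.le (hC hx)
  obtain ⟨L, hL, nL, hLR⟩ := hloc x hxE hx1
  have pD : PiGrp {p}ᶜ D := p'_of_pgroup (pgroup_of_le p₁ inf_le_left) hqp
  have pY : PiGrp {p}ᶜ (D ⊔ (L ⊓ 𝐍(D))) := pD.sup (hL.of_le inf_le_left) inf_le_right
  have nY : E ≤ 𝐍(D ⊔ (L ⊓ 𝐍(D))) := norm_sup nD (norm_inf nL (norm_norm nD))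
  have cY := (pY.coprime_pgroup hE).symm
  have sY : Group.IsSolvable E ∨ Group.IsSolvable ↥(D ⊔ (L ⊓ 𝐍(D))) := Or.inl (pgroup_sol hE)
  have syl : ∀ Q ∈ maxInvSubgroups ⊤ E {q}, D ≤ Q → ¬ Q ⊓ 𝐍(D) ⊓ 𝐂[x] ≤ D →
      ∃ R, Syl q R (D ⊔ (L ⊓ 𝐍(D))) ∧ D < Q ⊓ R ∧ E ≤ 𝐍(R) := fun Q hQ hDQ hne => by
    have pQ := (maxInv_pi hQ).pgroup
    have n1 : E ≤ 𝐍(Q ⊓ 𝐍(D) ⊓ 𝐂[x]) :=
      norm_inf (nN Q hQ) (norm_cent1 (le_cent1_iff.2 (abelian_cent hab hxE)))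
    have hle : D ⊔ (Q ⊓ 𝐍(D) ⊓ 𝐂[x]) ≤ Q := sup_le hDQ (inf_le_left.trans inf_le_left)
    obtain ⟨R, hR, hle', nR⟩ := Syl.exists_inv_ge nY cY sY (pgroup_of_le pQ hle)
      (sup_le_sup_left (le_inf (hLR _ inf_le_right
        (pgroup_of_le pQ (inf_le_left.trans inf_le_left)) n1) (inf_le_left.trans inf_le_right)) D)
      (norm_sup nD n1)
    exact ⟨R, hR, (left_lt_sup.2 hne).trans_le (le_inf hle hle'), nR⟩
  obtain ⟨R₁, s₁, le₁, n₁⟩ := syl Q₁ h₁ inf_le_left hne₁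
  obtain ⟨R₂, s₂, le₂, n₂⟩ := syl Q₂ h₂ inf_le_right hne₂
  obtain ⟨c, hc, rfl⟩ := s₁.inv_trans s₂ nY cY sY n₁ n₂
  have hcK : c ∈ 𝐎({p}ᶜ, 𝐂(E)) :=
    (Hall_p'core_cent hE hab hΩ).mem_of_normal (pcore_nml _ _).norm hc.2 (pY.elt hc.1)
  obtain ⟨Q₃, h₃, le₃⟩ := maxInv_exists le_top s₂.pi n₂
  have h₁' := maxInv_top_conj h₁ (cent_le_norm E hc.2)
  have lt : ∀ {U V : Subgroup G}, Nat.card D < Nat.card U → U ≤ V →
      Nat.card G - Nat.card V < m := by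
    intro U V h1 h2
    have := card_le_of_le h2
    have := card_le_card_group V
    omega
  obtain ⟨k₃, hk₃, e₃⟩ := ih _ (lt (U := c ⋆ (Q₁ ⊓ R₁))
    (by rw [Transfer.card_conj]; exact Core.card_lt_card_of_lt le₁)
    (le_inf (Transfer.conj_mono c inf_le_left) ((Transfer.conj_mono c inf_le_right).trans le₃)))
    _ h₁' _ h₃ rfl
  obtain ⟨k₂, hk₂, e₂⟩ := ih _ (lt (Core.card_lt_card_of_lt le₂)
    (le_inf (inf_le_right.trans le₃) inf_le_left)) _ h₃ _ h₂ rfl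
  exact ⟨k₂ * k₃ * c, mul_mem (mul_mem hk₂ hk₃) hcK, by
    rw [e₂, e₃, Transfer.conj_conj, Transfer.conj_conj]⟩

/-- The Thompson transitivity theorem. -/
theorem thompson_transitivity [hq : Fact q.Prime] (hqp : q ≠ p)
    (hloc : ∀ T : Subgroup G, IsPGroup p T → T ≠ ⊥ → IsPConstrained p 𝐍(T))
    (h2 : p = 2 → ∀ S : Subgroup G, IsPGroup p S → ⁅⁅S, S⁆, S⁆ = ⊥) {E : Subgroup G}
    (hE : IsPGroup p E) (hab : IsMulCommutative E) (h3 : 3 ≤ rk p E)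
    (hΩ : ∀ x ∈ 𝐂(E), IsPGroup p (zpowers x) → x ∈ E) :
    TransOn 𝐎({p}ᶜ, 𝐂(E)) (maxInvSubgroups ⊤ E {q}) := by
  refine transitivity_of_local hqp hE hab h3 hΩ fun x hx hx1 => ?_
  have hCN : 𝐂[x] ≤ 𝐍(zpowers x) := cent_zpowers x ▸ cent_le_norm _
  have hEN : E ≤ 𝐍(zpowers x) := (le_cent1_iff.2 (abelian_cent hab hx)).trans hCN
  have hc := hloc (zpowers x) (pgroup_of_le hE (zpowers_le.2 hx)) (by simpa using hx1)
  refine ⟨𝐎({p}ᶜ, 𝐍(zpowers x)), pcore_pi _ _, norm_pcore (le_norm_of_le hEN) _,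
    fun R hR pR nR => ?_⟩
  set M := 𝐍(zpowers x) with hM
  have hRM : R ≤ M := hR.trans hCN
  have hE' := (Core.isPGroup_subgroupOf_iff hEN).mpr hE
  have hR' := Core.coprime_subgroupOf M (p'_of_pgroup pR hqp).coprime_p
  have hΩ' : ∀ y ∈ 𝐂(E.subgroupOf M), IsPGroup p (zpowers y) → y ∈ E.subgroupOf M := by
    intro y hy py
    rw [Core.centralizer_subgroupOf_eq hEN] at hy
    refine hΩ y hy ?_
    have := py.map M.subtype
    rwa [MonoidHom.map_zpowers] at this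
  rw [pcore_p'_eq, Core.le_map_subtype_iff hRM]
  by_cases hp2 : p = 2
  · refine thompson_bender_class_two hc (fun S hS => ?_) hE' hΩ' hR'
      ((subgroupOf_mono M nR).trans (le_normalizer_comap M.subtype))
    rw [← map_eq_bot_iff_of_injective _ M.subtype_injective, map_commutator, map_commutator]
    exact h2 hp2 _ (hS.map _)
  · refine Coprime.thompson_bender (Core.isPConstrained_iff.1 hc) hp2 hE' (fun y hy hyp => ?_) hR'
      ((subgroupOf_mono M nR).trans (le_normalizer_comap M.subtype))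
    refine hΩ' y hy ?_
    by_cases h : y = 1
    · exact IsPGroup.of_card (n := 0) (by simp [h])
    · exact IsPGroup.of_card (n := 1) (by simpa using orderOf_eq_prime hyp h)

end Cfsg.Lib.BG
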